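import Cfsg.Agent.H136.EE.Comp
import Cfsg.Agent.H865.EE.PP

/-!
# `C_W(w8)` is transitive on the regular planes of `F₅⁴` (helper136, S5923)

`trans_reg` : two subspaces `A`, `B` of dimension 2 of `F₅⁴` containing no `PP a` (`a` a root) are conjugate under `CW`.

The plane `W0 = {c₀ + 2 c₂ = c₁ = 0}` consists of vectors `PP a` (and 0), hence a regular plane is the graph
`{c₂ = (c₀ + 2 c₂) s + c₁ s', c₃ = (c₀ + 2 c₂) t + c₁ t'}` of a map; a table gives for each of the 625 graphs a root in it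
or a word of reflections mapping the plane `A0` to it.
-/

set_option autoImplicit false
set_option linter.unusedSectionVars false

namespace Cfsg.Agent.H136.L5

open CoxeterSystem Subgroup Cfsg Cfsg.Lie Cfsg.Lie.ChevalleyDatum
open Cfsg.Agent.ChevalleyStructure Cfsg.Agent.ChevalleyStructure.Elts Cfsg.Agent.ChevalleyStructure.CoxeterGeom
  Cfsg.Agent.ChevalleyStructure.CoxeterGeomTypes Cfsg.Agent.ChevalleyStructure.NPerm
open Cfsg.Agent.Tits.Roots Cfsg.Agent.Tits.Core Cfsg.Agent.Nodes Cfsg.Agent.Nodes.SubComb Cfsg.Agent.Nodes.Reps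
  Cfsg.Agent.Nodes.BNOf Cfsg.Agent.Nodes.RGDChev Cfsg.Agent.Nodes.Bruhat Cfsg.Agent.Nodes.Coroot
open Cfsg.Agent.H865.EE Cfsg.Agent.H136.EE

attribute [local irreducible] w8

theorem p5 : Fact (Nat.Prime 5) := ⟨by norm_num⟩

attribute [local instance] p5

/-- the table: `[0, i]` = the root of index `i` lies in the plane, `1 :: w` = the word `w` maps `A0` to the plane -/
def tb : List (List ℕ) := [
  [0, 8], [0, 26], [0, 15], [0, 13], [0, 20], [0, 82], [0, 100], [0, 78], [0, 81], [0, 93], [0, 2], [0, 43], [0, 44],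
  [0, 16], [0, 14], [0, 1], [0, 0], [0, 18], [0, 57], [0, 58], [0, 9], [0, 29], [0, 6], [0, 48], [0, 36], [0, 8],
  [1], [0, 13], [1, 26], [0, 12], [0, 84], [0, 87], [0, 81], [0, 88], [0, 78], [0, 2], [0, 17], [1, 33], [1, 18],
  [0, 16], [0, 5], [1, 23], [1, 2], [0, 1], [0, 0], [0, 10], [0, 9], [0, 31], [0, 6], [0, 21], [0, 8], [0, 13],
  [1, 12], [0, 12], [1, 8], [0, 91], [0, 78], [0, 84], [0, 82], [0, 85], [0, 2], [0, 14], [1, 6, 12], [1, 3, 29],
  [0, 17], [0, 5], [0, 1], [0, 0], [1, 0, 16], [1, 1, 6], [0, 10], [0, 21], [0, 9], [0, 22], [0, 6], [0, 8], [0, 19],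
  [0, 12], [0, 15], [0, 26], [0, 81], [0, 85], [0, 82], [0, 78], [0, 84], [0, 2], [0, 16], [0, 14], [0, 43], [0, 44],
  [0, 0], [0, 57], [0, 58], [0, 18], [0, 1], [0, 6], [0, 22], [0, 31], [0, 9], [0, 28], [0, 8], [0, 12], [1, 19],
  [1, 13], [0, 13], [0, 78], [0, 82], [0, 92], [0, 85], [0, 81], [0, 2], [1, 13, 18], [0, 16], [0, 14], [1, 0, 15],
  [0, 5], [1, 0, 4], [0, 1], [0, 0], [1, 2, 58], [0, 10], [0, 6], [0, 29], [0, 28], [0, 9], [0, 8], [1, 7], [0, 6],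
  [0, 17], [1, 0, 33], [0, 1], [0, 0], [0, 21], [1, 7, 19], [1, 2, 9], [0, 2], [1, 6, 51], [0, 15], [1, 2, 7],
  [0, 36], [0, 5], [0, 29], [0, 19], [0, 16], [0, 14], [0, 10], [0, 32], [0, 31], [0, 13], [0, 47], [0, 8], [0, 9],
  [0, 51], [0, 6], [0, 18], [0, 43], [0, 44], [0, 26], [0, 1], [0, 0], [0, 2], [0, 51], [0, 36], [0, 51], [0, 15],
  [0, 5], [0, 28], [0, 20], [0, 51], [0, 16], [0, 10], [0, 32], [0, 13], [0, 48], [0, 12], [0, 8], [0, 18], [0, 9],
  [0, 35], [0, 6], [0, 35], [0, 1], [0, 0], [0, 26], [0, 35], [0, 2], [0, 15], [0, 35], [0, 22], [0, 35], [0, 5],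
  [0, 14], [0, 35], [0, 19], [0, 29], [0, 10], [0, 13], [0, 31], [0, 12], [0, 35], [0, 6], [1, 47], [0, 17], [0, 9],
  [1, 3, 16], [0, 0], [1, 1, 10], [1, 0, 58], [0, 21], [0, 1], [0, 2], [0, 22], [1, 0, 3], [0, 15], [1, 1, 9],
  [0, 5], [0, 16], [0, 14], [0, 20], [0, 28], [0, 10], [0, 32], [0, 12], [0, 48], [0, 47], [0, 8], [0, 6],
  [1, 1, 39], [1, 0, 13], [0, 9], [0, 21], [1, 2, 37], [0, 1], [0, 0], [1, 58], [0, 2], [0, 36], [1, 6], [1, 6, 15],
  [0, 22], [0, 5], [0, 20], [0, 16], [0, 14], [0, 19], [0, 10], [0, 12], [0, 31], [0, 48], [0, 13], [0, 8], [0, 43],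
  [0, 22], [0, 57], [0, 36], [0, 9], [1, 0, 6], [0, 6], [1, 21], [0, 20], [0, 2], [0, 26], [0, 18], [1, 4, 21],
  [1, 1, 32], [0, 5], [1, 3, 39], [0, 21], [0, 13], [1, 9, 10], [0, 1], [0, 0], [0, 15], [0, 16], [0, 14], [0, 8],
  [0, 23], [0, 23], [0, 23], [0, 23], [0, 19], [0, 9], [0, 20], [0, 6], [0, 23], [0, 2], [0, 23], [0, 23], [0, 23],
  [0, 18], [0, 5], [0, 17], [0, 13], [0, 23], [0, 12], [0, 10], [0, 23], [0, 23], [0, 1], [0, 0], [0, 8], [0, 37],
  [0, 37], [0, 22], [0, 37], [0, 20], [0, 37], [0, 9], [0, 19], [0, 6], [0, 2], [0, 18], [0, 37], [0, 26], [0, 29],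
  [0, 5], [0, 13], [0, 37], [0, 12], [0, 17], [0, 10], [0, 1], [0, 0], [0, 37], [0, 37], [0, 8], [0, 22], [0, 58],
  [0, 36], [0, 44], [0, 6], [0, 19], [1, 0], [0, 9], [1, 0, 23], [0, 2], [1, 0, 5], [1, 0, 7], [0, 18], [0, 26],
  [0, 5], [1, 0, 25], [0, 12], [0, 21], [1, 39], [0, 0], [0, 16], [0, 14], [0, 15], [0, 1], [0, 8], [0, 36], [0, 43],
  [0, 44], [0, 22], [0, 55], [0, 6], [1, 0, 19], [1, 0, 9], [0, 9], [0, 2], [1, 4, 10], [0, 29], [0, 28], [1, 31],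
  [0, 5], [0, 12], [1, 2, 8], [1, 84], [0, 13], [0, 10], [0, 32], [0, 1], [0, 0], [0, 47], [0, 4], [0, 4], [0, 4],
  [0, 4], [0, 4], [0, 4], [0, 4], [0, 4], [0, 4], [0, 4], [0, 1], [0, 0], [0, 4], [0, 4], [0, 4], [0, 4], [0, 4],
  [0, 4], [0, 4], [0, 4], [0, 4], [0, 4], [0, 4], [0, 4], [0, 4], [0, 8], [1, 9], [1, 1, 12], [0, 68], [0, 16],
  [0, 29], [0, 17], [1, 0, 2], [1, 1, 5], [0, 15], [0, 2], [0, 9], [0, 13], [0, 1], [0, 0], [0, 5], [1, 3], [0, 26],
  [1, 0, 44], [0, 55], [0, 10], [0, 32], [0, 20], [0, 48], [0, 18], [0, 8], [0, 14], [0, 68], [1, 0, 43], [1, 1, 29],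
  [0, 28], [0, 15], [1, 0, 24], [1, 25], [0, 17], [0, 2], [0, 1], [0, 0], [0, 12], [0, 6], [0, 5], [0, 55], [1, 14],
  [0, 22], [1, 1, 17], [0, 10], [0, 18], [0, 31], [0, 19], [0, 43], [0, 7], [0, 7], [0, 7], [0, 7], [0, 7], [0, 7],
  [0, 7], [0, 7], [0, 7], [0, 7], [0, 0], [0, 7], [0, 7], [0, 7], [0, 1], [0, 5], [0, 7], [0, 7], [0, 7], [0, 7],
  [0, 7], [0, 7], [0, 7], [0, 7], [0, 7], [0, 8], [1, 22], [0, 16], [0, 14], [1, 2, 17], [0, 15], [1, 1, 33],
  [0, 29], [0, 28], [1, 4, 32], [0, 2], [0, 6], [0, 1], [0, 0], [0, 9], [0, 5], [0, 36], [1, 1, 14], [1, 3, 55],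
  [0, 22], [0, 10], [0, 20], [0, 31], [0, 44], [0, 19], [0, 1], [0, 0], [0, 28], [1, 5, 40], [1, 2, 84], [0, 12],
  [1, 4, 40], [0, 18], [0, 13], [0, 14], [0, 2], [1, 1, 2], [0, 19], [0, 57], [0, 20], [0, 5], [0, 43], [0, 6],
  [1, 9, 20], [1, 10], [0, 10], [0, 26], [0, 31], [0, 17], [0, 47], [0, 8], [0, 28], [1, 2, 20], [0, 1], [0, 0],
  [0, 14], [1, 17], [0, 13], [1, 4, 18], [0, 12], [0, 2], [1, 51], [0, 20], [1, 1, 40], [0, 21], [0, 5], [0, 9],
  [1, 2, 51], [0, 6], [0, 15], [0, 10], [0, 17], [0, 26], [0, 48], [0, 47], [0, 8], [0, 1], [0, 0], [1, 1, 13],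
  [0, 29], [0, 16], [0, 13], [1, 0, 28], [0, 12], [1, 1, 3], [0, 2], [0, 21], [1, 1, 20], [0, 19], [1, 1], [0, 5],
  [0, 15], [0, 9], [1, 16], [0, 6], [0, 10], [0, 32], [0, 31], [0, 26], [0, 17], [0, 0], [1, 5], [1, 0, 12], [0, 29],
  [0, 1], [0, 13], [0, 16], [0, 12], [0, 18], [1, 4], [0, 2], [0, 19], [0, 58], [0, 20], [1, 1, 19], [0, 5],
  [1, 3, 8], [1, 0, 14], [0, 9], [0, 44], [0, 10], [0, 32], [0, 17], [0, 48], [0, 26], [0, 8], [0, 40], [0, 1],
  [0, 0], [0, 40], [0, 18], [0, 12], [0, 16], [0, 14], [0, 13], [0, 2], [0, 20], [0, 40], [0, 40], [0, 19], [0, 5],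
  [0, 6], [0, 40], [0, 40], [0, 9], [0, 10], [0, 32], [0, 31], [0, 40], [0, 40]]

/-! ### The linear action of `CW` on `F₅⁴` -/

theorem PP_act_eq {v : W8} (hv : v ∈ CW) {x y : Fin 8 → ℤ} (h : PP x = PP y) : PP (act v x) = PP (act v y) := by
  obtain ⟨z, hz⟩ := PP_eq_iff.1 h
  refine PP_eq_iff.2 ⟨act v z, ?_⟩
  rw [← map_sub, hz, map_sub, map_nsmul, mem_CW.1 hv]

theorem exists_lin {v : W8} (hv : v ∈ CW) :
    ∃ M : (Fin 4 → ZMod 5) ≃ₗ[ZMod 5] (Fin 4 → ZMod 5), ∀ x, M (PP x) = PP (act v x) := by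
  choose s hs using PP_surj
  have key : ∀ v ∈ CW, ∃ M : (Fin 4 → ZMod 5) →ₗ[ZMod 5] (Fin 4 → ZMod 5), ∀ x, M (PP x) = PP (act v x) := by
    intro v hv
    let f : (Fin 4 → ZMod 5) →+ (Fin 4 → ZMod 5) :=
      { toFun := fun c => PP (act v (s c))
        map_zero' := by
          show PP (act v (s 0)) = 0
          rw [PP_act_eq hv (y := 0) (by rw [hs, map_zero]), map_zero, map_zero]
        map_add' := fun c d => by
          show PP (act v (s (c + d))) = PP (act v (s c)) + PP (act v (s d))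
          rw [PP_act_eq hv (y := s c + s d) (by rw [hs, map_add, hs, hs]), map_add, map_add] }
    refine ⟨f.toZModLinearMap 5, fun x => ?_⟩
    show PP (act v (s (PP x))) = _
    exact PP_act_eq hv (hs _)
  obtain ⟨M, hM⟩ := key v hv
  obtain ⟨N, hN⟩ := key v⁻¹ (inv_mem hv)
  refine ⟨LinearEquiv.ofLinearMap M N (LinearMap.ext fun c => ?_) (LinearMap.ext fun c => ?_), fun x => hM x⟩
  · obtain ⟨x, rfl⟩ := PP_surj c
    rw [LinearMap.comp_apply, hN, hM, ← act_mul, mul_inv_cancel, act_one, LinearMap.id_apply]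
  · obtain ⟨x, rfl⟩ := PP_surj c
    rw [LinearMap.comp_apply, hM, hN, ← act_mul, inv_mul_cancel, act_one, LinearMap.id_apply]

/-! ### Graphs -/

/-- membership in the graph -/
def InG (s t s' t' : ZMod 5) (c : Fin 4 → ZMod 5) : Prop :=
  c 2 = (c 0 + 2 * c 2) * s + c 1 * s' ∧ c 3 = (c 0 + 2 * c 2) * t + c 1 * t'

/-- membership in the graph, on lists -/
def inL (s t s' t' : ℤ) (z : List ℤ) : Bool :=
  decide ((z.getD 2 0 - ((z.getD 0 0 + 2 * z.getD 2 0) * s + z.getD 1 0 * s')) % 5 = 0) &&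
    decide ((z.getD 3 0 - ((z.getD 0 0 + 2 * z.getD 2 0) * t + z.getD 1 0 * t')) % 5 = 0)

theorem pcd_cast (x : Fin 8 → ℤ) (i : Fin 4) : (((pcd (toL x)).getD i 0 : ℤ) : ZMod 5) = PP x i := by
  rw [pcd_toL, PP_apply]
  exact ZMod.intCast_mod _ 5

theorem inL_iff (s t s' t' : ℤ) (x : Fin 8 → ℤ) :
    inL s t s' t' (pcd (toL x)) = true ↔ InG (s : ZMod 5) t s' t' (PP x) := by
  have h0 := pcd_cast x 0
  have h1 := pcd_cast x 1
  have h2 := pcd_cast x 2
  have h3 := pcd_cast x 3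
  have h5 : ∀ m : ℤ, m % 5 = 0 ↔ ((m : ℤ) : ZMod 5) = 0 := fun m => by
    rw [ZMod.intCast_zmod_eq_zero_iff_dvd]
    omega
  rw [inL, Bool.and_eq_true, decide_eq_true_eq, decide_eq_true_eq, h5, h5, InG, ← h0, ← h1, ← h2, ← h3]
  push_cast
  rw [sub_eq_zero, sub_eq_zero]
  rfl


/-! ### The plane `W0` -/

/-- every vector of `W0` is a vector of a root. -/
theorem tab_W0 : ((List.range 25).all fun n => decide (n = 0) ||
    RL.any fun x => decide (pcd x = [((3 * (n / 5 : ℕ) : ℕ) : ℤ) % 5, 0, ((n / 5 : ℕ) : ℤ), ((n % 5 : ℕ) : ℤ)])) = true := by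
  decide +kernel

theorem exists_root_W0 {c : Fin 4 → ZMod 5} (h0 : c 0 + 2 * c 2 = 0) (h1 : c 1 = 0) (hc : c ≠ 0) :
    ∃ a, Rt a ∧ PP a = c := by
  have hn : 5 * (c 2).val + (c 3).val < 25 := by
    have := ZMod.val_lt (c 2)
    have := ZMod.val_lt (c 3)
    omega
  have h := List.all_eq_true.1 tab_W0 _ (List.mem_range.2 hn)
  rw [Bool.or_eq_true, decide_eq_true_eq] at h
  have hd : (5 * (c 2).val + (c 3).val) / 5 = (c 2).val := by
    have := ZMod.val_lt (c 3)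
    omega
  have hm : (5 * (c 2).val + (c 3).val) % 5 = (c 3).val := by
    have := ZMod.val_lt (c 3)
    omega
  rw [hd, hm] at h
  rcases h with h | h
  · exfalso
    have e2 : c 2 = 0 := (ZMod.val_eq_zero _).1 (by omega)
    have e3 : c 3 = 0 := (ZMod.val_eq_zero _).1 (by omega)
    apply hc
    funext i
    have e0 : c 0 = 0 := by rw [e2, mul_zero, add_zero] at h0; exact h0
    fin_cases i
    · exact e0
    · exact h1
    · exact e2
    · exact e3
  · obtain ⟨l, hl, h⟩ := List.any_eq_true.1 h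
    rw [decide_eq_true_eq] at h
    refine ⟨ofL l, root_ofL hl, ?_⟩
    funext i
    rw [← pcd_cast, toL_ofL hl, h]
    fin_cases i
    · show ((((3 * (c 2).val : ℕ) : ℤ) % 5 : ℤ) : ZMod 5) = c 0
      rw [show ((((3 * (c 2).val : ℕ) : ℤ) % 5 : ℤ) : ZMod 5) = (((3 * (c 2).val : ℕ) : ℤ) : ZMod 5) from ZMod.intCast_mod _ 5]
      push_cast
      rw [ZMod.natCast_zmod_val]
      have h5 : (5 : ZMod 5) = 0 := rfl
      linear_combination c 2 * h5 - h0
    · exact Eq.trans (by simp) h1.symm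
    · show ((((c 2).val : ℕ) : ℤ) : ZMod 5) = c 2
      rw [Int.cast_natCast, ZMod.natCast_zmod_val]
    · show ((((c 3).val : ℕ) : ℤ) : ZMod 5) = c 3
      rw [Int.cast_natCast, ZMod.natCast_zmod_val]

/-! ### Regular planes are graphs -/

/-- the projection with kernel `W0` -/
def prj : (Fin 4 → ZMod 5) →ₗ[ZMod 5] (Fin 2 → ZMod 5) where
  toFun c := ![c 0 + 2 * c 2, c 1]
  map_add' c d := by
    funext i
    fin_cases i
    · show (c + d) 0 + 2 * (c + d) 2 = (c 0 + 2 * c 2) + (d 0 + 2 * d 2)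
      rw [Pi.add_apply, Pi.add_apply]
      ring
    · rfl
  map_smul' m c := by
    funext i
    fin_cases i
    · show (m • c) 0 + 2 * (m • c) 2 = m * (c 0 + 2 * c 2)
      rw [Pi.smul_apply, Pi.smul_apply, smul_eq_mul, smul_eq_mul]
      ring
    · rfl

theorem prj_zero (c : Fin 4 → ZMod 5) : prj c 0 = c 0 + 2 * c 2 := rfl

theorem prj_one (c : Fin 4 → ZMod 5) : prj c 1 = c 1 := rfl

theorem exists_graph (A : Submodule (ZMod 5) (Fin 4 → ZMod 5)) (hA : Module.finrank (ZMod 5) A = 2)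
    (hA2 : ∀ a, Rt a → PP a ∉ A) : ∃ s t s' t' : ZMod 5, ∀ c, c ∈ A ↔ InG s t s' t' c := by
  have hker : ∀ c ∈ A, prj c = 0 → c = 0 := by
    intro c hc h
    by_contra hne
    obtain ⟨a, ha, e⟩ := exists_root_W0 (congrFun h 0) (congrFun h 1) hne
    exact hA2 a ha (e ▸ hc)
  have hinj : Function.Injective (prj.comp A.subtype) := by
    rw [← LinearMap.ker_eq_bot, LinearMap.ker_eq_bot']
    intro c hc
    exact Subtype.ext (hker c.1 c.2 hc)
  have hsurj : Function.Surjective (prj.comp A.subtype) :=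
    (LinearMap.injective_iff_surjective_of_finrank_eq_finrank
      (hA.trans (Module.finrank_fin_fun (n := 2) (ZMod 5)).symm)).1 hinj
  obtain ⟨⟨u, hu⟩, hu2⟩ := hsurj ![1, 0]
  obtain ⟨⟨w, hw⟩, hw2⟩ := hsurj ![0, 1]
  have hu3 : prj u = ![1, 0] := hu2
  have hw3 : prj w = ![0, 1] := hw2
  refine ⟨u 2, u 3, w 2, w 3, fun c => ?_⟩
  have hd : prj (c - (prj c 0 • u + prj c 1 • w)) = 0 := by
    rw [map_sub, map_add, map_smul, map_smul, hu3, hw3]
    funext i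
    fin_cases i
    · simp
    · simp
  constructor
  · intro hc
    have h := hker _ (A.sub_mem hc (A.add_mem (A.smul_mem _ hu) (A.smul_mem _ hw))) hd
    rw [sub_eq_zero] at h
    have h2 := congrFun h 2
    have h3 := congrFun h 3
    rw [Pi.add_apply, Pi.smul_apply, Pi.smul_apply, smul_eq_mul, smul_eq_mul, prj_zero, prj_one] at h2 h3
    exact ⟨h2, h3⟩
  · rintro ⟨h2, h3⟩
    have e : c = prj c 0 • u + prj c 1 • w := by
      rw [← sub_eq_zero]
      have h2' : (c - (prj c 0 • u + prj c 1 • w)) 2 = 0 := by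
        rw [Pi.sub_apply, Pi.add_apply, Pi.smul_apply, Pi.smul_apply, smul_eq_mul, smul_eq_mul, prj_zero, prj_one, ← h2,
          sub_self]
      have h3' : (c - (prj c 0 • u + prj c 1 • w)) 3 = 0 := by
        rw [Pi.sub_apply, Pi.add_apply, Pi.smul_apply, Pi.smul_apply, smul_eq_mul, smul_eq_mul, prj_zero, prj_one, ← h3,
          sub_self]
      have h1' := congrFun hd 1
      have h0' := congrFun hd 0
      rw [prj_one] at h1'
      rw [prj_zero, h2', mul_zero, add_zero] at h0'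
      funext i
      fin_cases i
      · exact h0'
      · exact h1'
      · exact h2'
      · exact h3'
    rw [e]
    exact A.add_mem (A.smul_mem _ hu) (A.smul_mem _ hw)

/-! ### The table -/

/-- the check for one graph: a root in it, or a word mapping the vectors `(1,0,0,1)`, `(0,1,0,1)` of `A0` into it. -/
def chk (s t s' t' : ℤ) : List ℕ → Bool
  | 0 :: i :: _ => decide (i < 240) && inL s t s' t' (pcd (RL.getD i []))
  | _ :: w => (w.all fun d => decide (d < 240)) && (inL s t s' t' (pcd (apR w [0, 0, 0, 0, 1, 0, 0, 1])) &&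
      inL s t s' t' (pcd (apR w [0, 0, 0, 0, 0, 1, 0, 1])))
  | _ => false

theorem tab_tb : ((List.range 625).all fun n =>
    chk ((n / 125 : ℕ) : ℤ) ((n / 25 % 5 : ℕ) : ℤ) ((n / 5 % 5 : ℕ) : ℤ) ((n % 5 : ℕ) : ℤ) (tb.getD n [])) = true := by
  decide +kernel

/-- the two vectors of `A0` -/
def xu : Fin 8 → ℤ := ![0, 0, 0, 0, 1, 0, 0, 1]
def xw : Fin 8 → ℤ := ![0, 0, 0, 0, 0, 1, 0, 1]

/-- the plane `A0` -/
def A0 : Submodule (ZMod 5) (Fin 4 → ZMod 5) := Submodule.span (ZMod 5) {PP xu, PP xw}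

theorem finrank_A0 : Module.finrank (ZMod 5) A0 = 2 := by
  have h : LinearIndependent (ZMod 5) ![PP xu, PP xw] := by
    rw [LinearIndependent.pair_iff]
    intro s t h
    have h0 := congrFun h 0
    have h1 := congrFun h 1
    rw [Pi.add_apply, Pi.smul_apply, Pi.smul_apply, smul_eq_mul, smul_eq_mul, Pi.zero_apply] at h0 h1
    rw [show PP xu 0 = 1 from rfl, show PP xw 0 = 0 from rfl, mul_one, mul_zero, add_zero] at h0
    rw [show PP xu 1 = 0 from rfl, show PP xw 1 = 1 from rfl, mul_one, mul_zero, zero_add] at h1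
    exact ⟨h0, h1⟩
  have h2 := finrank_span_eq_card h
  rw [Fintype.card_fin, Matrix.range_cons_cons_empty] at h2
  exact h2

theorem exists_from_A0 (A : Submodule (ZMod 5) (Fin 4 → ZMod 5)) (hA : Module.finrank (ZMod 5) A = 2)
    (hA2 : ∀ a, Rt a → PP a ∉ A) : ∃ v ∈ CW, ∀ x, PP x ∈ A0 ↔ PP (act v x) ∈ A := by
  obtain ⟨s, t, s', t', hG⟩ := exists_graph A hA hA2
  have hs := ZMod.val_lt s
  have ht := ZMod.val_lt t
  have hs' := ZMod.val_lt s'
  have ht' := ZMod.val_lt t'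
  have hn : 125 * s.val + 25 * t.val + 5 * s'.val + t'.val < 625 := by omega
  have h := List.all_eq_true.1 tab_tb _ (List.mem_range.2 hn)
  generalize tb.getD _ [] = e at h
  rw [show (125 * s.val + 25 * t.val + 5 * s'.val + t'.val) / 125 = s.val by omega,
    show (125 * s.val + 25 * t.val + 5 * s'.val + t'.val) / 25 % 5 = t.val by omega,
    show (125 * s.val + 25 * t.val + 5 * s'.val + t'.val) / 5 % 5 = s'.val by omega,
    show (125 * s.val + 25 * t.val + 5 * s'.val + t'.val) % 5 = t'.val by omega] at h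
  have hin : ∀ x, inL (s.val : ℤ) (t.val : ℤ) (s'.val : ℤ) (t'.val : ℤ) (pcd (toL x)) = true → PP x ∈ A := by
    intro x hx
    rw [inL_iff] at hx
    rw [hG]
    simpa only [Int.cast_natCast, ZMod.natCast_zmod_val] using hx
  have hword : ∀ w : List ℕ, (w.all fun d => decide (d < 240)) = true →
      inL (s.val : ℤ) (t.val : ℤ) (s'.val : ℤ) (t'.val : ℤ) (pcd (apR w [0, 0, 0, 0, 1, 0, 0, 1])) = true →
      inL (s.val : ℤ) (t.val : ℤ) (s'.val : ℤ) (t'.val : ℤ) (pcd (apR w [0, 0, 0, 0, 0, 1, 0, 1])) = true →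
      ∃ v ∈ CW, ∀ x, PP x ∈ A0 ↔ PP (act v x) ∈ A := by
    intro w hw h1 h2
    obtain ⟨v, hv, hvx⟩ := exists_word hw
    have hv' : v ∈ CW := RR_le hv
    obtain ⟨M, hM⟩ := exists_lin hv'
    rw [show [0, 0, 0, 0, 1, 0, 0, 1] = toL xu by decide +kernel, ← hvx] at h1
    rw [show [0, 0, 0, 0, 0, 1, 0, 1] = toL xw by decide +kernel, ← hvx] at h2
    have h1' := hin _ h1
    have h2' := hin _ h2
    have hle : A0.map (M : (Fin 4 → ZMod 5) →ₗ[ZMod 5] (Fin 4 → ZMod 5)) ≤ A := by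
      rw [A0, Submodule.map_span, Submodule.span_le]
      rintro _ ⟨c, hc, rfl⟩
      rcases hc with rfl | hc
      · show M (PP xu) ∈ A
        rw [hM]
        exact h1'
      · rw [Set.mem_singleton_iff] at hc
        rw [hc]
        show M (PP xw) ∈ A
        rw [hM]
        exact h2'
    have heq : A0.map (M : (Fin 4 → ZMod 5) →ₗ[ZMod 5] (Fin 4 → ZMod 5)) = A := by
      refine Submodule.eq_of_le_of_finrank_eq hle ?_
      rw [LinearEquiv.finrank_map_eq, finrank_A0, hA]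
    refine ⟨v, hv', fun x => ?_⟩
    rw [← hM, ← heq]
    constructor
    · exact fun hx => ⟨_, hx, rfl⟩
    · rintro ⟨c, hc, e⟩
      rwa [← M.injective e]
  match e, h with
  | 0 :: i :: _, h =>
    rw [chk, Bool.and_eq_true, decide_eq_true_eq] at h
    have hd : RL.getD i [] ∈ RL := by
      rw [List.getD_eq_getElem _ _ (length_RL ▸ h.1)]
      exact List.getElem_mem _
    rw [← toL_ofL hd] at h
    exact absurd (hin _ h.2) (hA2 _ (root_ofL hd))
  | [0], h =>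
    simp only [chk, Bool.and_eq_true] at h
    exact hword _ h.1 h.2.1 h.2.2
  | (_ + 1) :: w, h =>
    simp only [chk, Bool.and_eq_true] at h
    exact hword _ h.1 h.2.1 h.2.2

/-- **`C_W(w8)` is transitive on the regular planes.** -/
theorem trans_reg (A B : Submodule (ZMod 5) (Fin 4 → ZMod 5)) (hA : Module.finrank (ZMod 5) A = 2)
    (hB : Module.finrank (ZMod 5) B = 2) (hA2 : ∀ a, Rt a → PP a ∉ A) (hB2 : ∀ a, Rt a → PP a ∉ B) :
    ∃ v ∈ CW, ∀ x, PP x ∈ A ↔ PP (act v x) ∈ B := by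
  obtain ⟨v, hv, h⟩ := exists_from_A0 A hA hA2
  obtain ⟨u, hu, h'⟩ := exists_from_A0 B hB hB2
  refine ⟨u * v⁻¹, mul_mem hu (inv_mem hv), fun x => ?_⟩
  rw [act_mul, ← h', h, ← act_mul, mul_inv_cancel, act_one]

end Cfsg.Agent.H136.L5
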