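import Cfsg.Agent.H136.L5.XData
import Cfsg.Agent.Th.E8Run

/-!
# Kernel checks: six elements of `E₈(3)` satisfy the Steinberg relations of `SL₃(5)` (helper136, S5924)
-/

set_option autoImplicit false
set_option maxRecDepth 100000

namespace Cfsg.Agent.H136.L5.XChk

open Cfsg.Agent.Th.MatEngine Cfsg.Agent.Th.Words248 Cfsg.Agent.Th.E8Run Cfsg.Agent.H136.L5.XData

/-- `x_01`, packed -/
noncomputable def m01 : ℕ := expd l01
/-- `x_02`, packed -/
noncomputable def m02 : ℕ := expd l02
/-- `x_10`, packed -/
noncomputable def m10 : ℕ := expd l10
/-- `x_12`, packed -/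
noncomputable def m12 : ℕ := expd l12
/-- `x_20`, packed -/
noncomputable def m20 : ℕ := expd l20
/-- `x_21`, packed -/
noncomputable def m21 : ℕ := expd l21

theorem ok01 : Ok m01 := ok_of (by decide +kernel) (by decide +kernel) (by decide +kernel)
theorem ok02 : Ok m02 := ok_of (by decide +kernel) (by decide +kernel) (by decide +kernel)
theorem ok10 : Ok m10 := ok_of (by decide +kernel) (by decide +kernel) (by decide +kernel)
theorem ok12 : Ok m12 := ok_of (by decide +kernel) (by decide +kernel) (by decide +kernel)
theorem ok20 : Ok m20 := ok_of (by decide +kernel) (by decide +kernel) (by decide +kernel)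
theorem ok21 : Ok m21 := ok_of (by decide +kernel) (by decide +kernel) (by decide +kernel)

/-- fourth power -/
noncomputable def p4 (x : ℕ) : ℕ := force (mul x x) fun y => mul y y

theorem p01 : Nat.beq (mul m01 (p4 m01)) idm = true := by decide +kernel
theorem p02 : Nat.beq (mul m02 (p4 m02)) idm = true := by decide +kernel
theorem p10 : Nat.beq (mul m10 (p4 m10)) idm = true := by decide +kernel
theorem p12 : Nat.beq (mul m12 (p4 m12)) idm = true := by decide +kernel
theorem p20 : Nat.beq (mul m20 (p4 m20)) idm = true := by decide +kernel
theorem p21 : Nat.beq (mul m21 (p4 m21)) idm = true := by decide +kernel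

theorem r012 : Nat.beq (mul m01 m12) (mul m02 (mul m12 m01)) = true := by decide +kernel
theorem r021 : Nat.beq (mul m02 m21) (mul m01 (mul m21 m02)) = true := by decide +kernel
theorem r102 : Nat.beq (mul m10 m02) (mul m12 (mul m02 m10)) = true := by decide +kernel
theorem r120 : Nat.beq (mul m12 m20) (mul m10 (mul m20 m12)) = true := by decide +kernel
theorem r201 : Nat.beq (mul m20 m01) (mul m21 (mul m01 m20)) = true := by decide +kernel
theorem r210 : Nat.beq (mul m21 m10) (mul m20 (mul m10 m21)) = true := by decide +kernel

theorem c0102 : Nat.beq (mul m01 m02) (mul m02 m01) = true := by decide +kernel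
theorem c1012 : Nat.beq (mul m10 m12) (mul m12 m10) = true := by decide +kernel
theorem c2021 : Nat.beq (mul m20 m21) (mul m21 m20) = true := by decide +kernel
theorem c1020 : Nat.beq (mul m10 m20) (mul m20 m10) = true := by decide +kernel
theorem c0121 : Nat.beq (mul m01 m21) (mul m21 m01) = true := by decide +kernel
theorem c0212 : Nat.beq (mul m02 m12) (mul m12 m02) = true := by decide +kernel

theorem ne01 : Nat.beq m01 idm = false := by decide +kernel

theorem chk01 : chk w01 idm m01 = true := by decide +kernel
theorem chk12 : chk w12 idm m12 = true := by decide +kernel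
theorem chk20 : chk w20 idm m20 = true := by decide +kernel

theorem lt01 : ∀ a ∈ w01, a < 480 := by decide +kernel
theorem lt12 : ∀ a ∈ w12, a < 480 := by decide +kernel
theorem lt20 : ∀ a ∈ w20, a < 480 := by decide +kernel

end Cfsg.Agent.H136.L5.XChk
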