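import Cfsg.Agent.H136.L5.XChk
import Cfsg.Agent.H866.L5.X1

/-!
# `SL₃(5)` embeds in `E₈(3)` (helper136, X2 of S5924)

`exists_f` : the six elements of `XChk` lie in `chevE8.group (ZMod 3)` and satisfy the Steinberg relations.
-/

set_option autoImplicit false
set_option linter.unusedSectionVars false

namespace Cfsg.Agent.H136.L5.XExist

open Cfsg.Lie Cfsg.Agent.Th.MatEngine Cfsg.Agent.Th.Words248 Cfsg.Agent.Th.E8Recipe Cfsg.Agent.Th.E8Run
open Cfsg.Agent.H136.L5.XData Cfsg.Agent.H136.L5.XChk Cfsg.Agent.H865.L5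
open scoped commutatorElement

theorem mul_mat {x y z : ℕ} (hx : Ok x) (hy : Ok y) (h : Nat.beq (mul x y) z = true) : mat x * mat y = mat z := by
  rw [← (mul_spec hx hy).2, Nat.eq_of_beq_eq_true h]

theorem ok_p4 {x : ℕ} (hx : Ok x) : Ok (p4 x) := by
  unfold p4
  rw [force_eq]
  have h := (mul_spec hx hx).1
  exact (mul_spec h h).1

theorem mat_p4 {x : ℕ} (hx : Ok x) : mat (p4 x) = mat x ^ 4 := by
  unfold p4
  rw [force_eq]
  have h := mul_spec hx hx
  rw [(mul_spec h.1 h.1).2, h.2, ← pow_two, ← pow_two, ← pow_mul]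

theorem pow_five {x : ℕ} (hx : Ok x) (h : Nat.beq (mul x (p4 x)) idm = true) : mat x ^ 5 = 1 := by
  rw [pow_succ', ← mat_p4 hx, mul_mat hx (ok_p4 hx) h, idm_spec.2]

/-- a packed matrix of order 5 as an element of GL(248, 3) -/
noncomputable def gl (x : ℕ) (hx : Ok x) (h : Nat.beq (mul x (p4 x)) idm = true) : GL (Fin 248) (ZMod 3) :=
  ⟨mat x, mat x ^ 4, by rw [← pow_succ', pow_five hx h], by rw [← pow_succ, pow_five hx h]⟩

theorem gl_val {x : ℕ} (hx : Ok x) (h : Nat.beq (mul x (p4 x)) idm = true) :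
    (gl x hx h : Matrix (Fin 248) (Fin 248) (ZMod 3)) = mat x := rfl

/-- renaming of coordinates -/
noncomputable def ren : GL chevE8.Idx (ZMod 3) ≃* GL (Fin 248) (ZMod 3) :=
  Units.mapEquiv (Matrix.reindexRingEquiv (ZMod 3) eqv.symm).toMulEquiv

theorem ren_val (A : GL chevE8.Idx (ZMod 3)) :
    (ren A : Matrix (Fin 248) (Fin 248) (ZMod 3)) = (A : Matrix chevE8.Idx chevE8.Idx (ZMod 3)).submatrix eqv eqv := rfl

theorem submatrix_prod (w : List ℕ) :
    ((w.map fun a => chevE8.xMat (ZMod 3) ((letter a).1 : Fin chevE8.nroots) (letter a).2).prod).submatrix eqv eqv =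
      (w.map fun a => xm (letter a).1 (letter a).2).prod := by
  induction w with
  | nil =>
    rw [List.map_nil, List.map_nil, List.prod_nil, List.prod_nil]
    exact Matrix.submatrix_one_equiv eqv
  | cons a w ih =>
    rw [List.map_cons, List.map_cons, List.prod_cons, List.prod_cons, ← ih]
    exact (Matrix.submatrix_mul_equiv _ _ eqv eqv eqv).symm

/-- the product of a word lies in the Chevalley group -/
theorem mem_of_check {A : GL (Fin 248) (ZMod 3)} {x : ℕ} (hA : (A : Matrix (Fin 248) (Fin 248) (ZMod 3)) = mat x)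
    {w : List ℕ} (hw : ∀ a ∈ w, a < 480) (h : chk w idm x = true) : ren.symm A ∈ chevE8.group (ZMod 3) := by
  have h1 := chk_spec hw idm_spec.1 h
  rw [idm_spec.2, mul_one] at h1
  apply mem_group_of_prod (w.map fun a => (((letter a).1 : Fin chevE8.nroots), (letter a).2))
  rw [List.map_map]
  have h5 : ((ren.symm A : GL chevE8.Idx (ZMod 3)) : Matrix chevE8.Idx chevE8.Idx (ZMod 3)).submatrix eqv eqv =
      ((w.map fun a => chevE8.xMat (ZMod 3) ((letter a).1 : Fin chevE8.nroots) (letter a).2).prod).submatrix eqv eqv := by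
    rw [submatrix_prod, ← ren_val, MulEquiv.apply_symm_apply, hA, h1]
  have hinj : Function.Injective
      (fun A : Matrix chevE8.Idx chevE8.Idx (ZMod 3) => A.submatrix eqv eqv) := by
    intro A B hAB
    exact (Matrix.reindex eqv.symm eqv.symm).injective hAB
  exact hinj h5

/-! ### The six elements -/

noncomputable def g01 := gl m01 ok01 p01
noncomputable def g02 := gl m02 ok02 p02
noncomputable def g10 := gl m10 ok10 p10
noncomputable def g12 := gl m12 ok12 p12
noncomputable def g20 := gl m20 ok20 p20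
noncomputable def g21 := gl m21 ok21 p21

theorem gl_pow {x : ℕ} (hx : Ok x) (h : Nat.beq (mul x (p4 x)) idm = true) : gl x hx h ^ 5 = 1 :=
  Units.ext (by rw [Units.val_pow_eq_pow_val, gl_val, pow_five hx h, Units.val_one])

theorem gl_comm {x y z : ℕ} (hx : Ok x) (hy : Ok y) (hz : Ok z) (px : Nat.beq (mul x (p4 x)) idm = true)
    (py : Nat.beq (mul y (p4 y)) idm = true) (pz : Nat.beq (mul z (p4 z)) idm = true)
    (h : Nat.beq (mul x y) (mul z (mul y x)) = true) : ⁅gl x hx px, gl y hy py⁆ = gl z hz pz := by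
  have e : gl x hx px * gl y hy py = gl z hz pz * (gl y hy py * gl x hx px) := by
    apply Units.ext
    rw [Units.val_mul, Units.val_mul, Units.val_mul, gl_val, gl_val, gl_val, mul_mat hx hy h,
      (mul_spec hz (mul_spec hy hx).1).2, (mul_spec hy hx).2]
  rw [commutatorElement_def, e]
  group

theorem gl_commute {x y : ℕ} (hx : Ok x) (hy : Ok y) (px : Nat.beq (mul x (p4 x)) idm = true)
    (py : Nat.beq (mul y (p4 y)) idm = true)
    (h : Nat.beq (mul x y) (mul y x) = true) : ⁅gl x hx px, gl y hy py⁆ = 1 := by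
  have e : gl x hx px * gl y hy py = gl y hy py * gl x hx px := by
    apply Units.ext
    rw [Units.val_mul, Units.val_mul, gl_val, gl_val, mul_mat hx hy h, (mul_spec hy hx).2]
  rw [commutatorElement_def, e]
  group

theorem k012 : ⁅g01, g12⁆ = g02 := gl_comm ok01 ok12 ok02 p01 p12 p02 r012
theorem k021 : ⁅g02, g21⁆ = g01 := gl_comm ok02 ok21 ok01 p02 p21 p01 r021
theorem k102 : ⁅g10, g02⁆ = g12 := gl_comm ok10 ok02 ok12 p10 p02 p12 r102
theorem k120 : ⁅g12, g20⁆ = g10 := gl_comm ok12 ok20 ok10 p12 p20 p10 r120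
theorem k201 : ⁅g20, g01⁆ = g21 := gl_comm ok20 ok01 ok21 p20 p01 p21 r201
theorem k210 : ⁅g21, g10⁆ = g20 := gl_comm ok21 ok10 ok20 p21 p10 p20 r210
theorem q0102 : ⁅g01, g02⁆ = 1 := gl_commute ok01 ok02 p01 p02 c0102
theorem q0121 : ⁅g01, g21⁆ = 1 := gl_commute ok01 ok21 p01 p21 c0121
theorem q0212 : ⁅g02, g12⁆ = 1 := gl_commute ok02 ok12 p02 p12 c0212
theorem q1012 : ⁅g10, g12⁆ = 1 := gl_commute ok10 ok12 p10 p12 c1012
theorem q1020 : ⁅g10, g20⁆ = 1 := gl_commute ok10 ok20 p10 p20 c1020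
theorem q2021 : ⁅g20, g21⁆ = 1 := gl_commute ok20 ok21 p20 p21 c2021

/-- the elements of the Chevalley group -/
noncomputable def G : Subgroup (GL (Fin 248) (ZMod 3)) := (chevE8.group (ZMod 3)).comap ren.symm.toMonoidHom

theorem mem01 : g01 ∈ G := mem_of_check (gl_val ok01 p01) lt01 chk01
theorem mem12 : g12 ∈ G := mem_of_check (gl_val ok12 p12) lt12 chk12
theorem mem20 : g20 ∈ G := mem_of_check (gl_val ok20 p20) lt20 chk20

theorem mem_comm {a b c : GL (Fin 248) (ZMod 3)} (ha : a ∈ G) (hb : b ∈ G) (h : ⁅a, b⁆ = c) : c ∈ G := by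
  rw [← h, commutatorElement_def]
  exact mul_mem (mul_mem (mul_mem ha hb) (inv_mem ha)) (inv_mem hb)

theorem mem02 : g02 ∈ G := mem_comm mem01 mem12 k012
theorem mem10 : g10 ∈ G := mem_comm mem12 mem20 k120
theorem mem21 : g21 ∈ G := mem_comm mem20 mem01 k201

/-- the six elements -/
noncomputable def xg : Fin 3 → Fin 3 → ↥G :=
  ![![1, ⟨g01, mem01⟩, ⟨g02, mem02⟩], ![⟨g10, mem10⟩, 1, ⟨g12, mem12⟩], ![⟨g20, mem20⟩, ⟨g21, mem21⟩, 1]]

theorem comm_swap {Γ : Type*} [Group Γ] {a b : Γ} (h : ⁅a, b⁆ = 1) : ⁅b, a⁆ = 1 := by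
  rw [← commutatorElement_inv, h, inv_one]

theorem xg_pow (i j : Fin 3) (hij : i ≠ j) : xg i j ^ 5 = 1 := by
  apply Subtype.ext
  fin_cases i <;> fin_cases j
  · exact absurd rfl hij
  · exact gl_pow ok01 p01
  · exact gl_pow ok02 p02
  · exact gl_pow ok10 p10
  · exact absurd rfl hij
  · exact gl_pow ok12 p12
  · exact gl_pow ok20 p20
  · exact gl_pow ok21 p21
  · exact absurd rfl hij

theorem xg_comm (i j l : Fin 3) (hij : i ≠ j) (hjl : j ≠ l) (hil : i ≠ l) : ⁅xg i j, xg j l⁆ = xg i l := by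
  apply Subtype.ext
  have h := And.intro hij (And.intro hjl hil)
  fin_cases i <;> fin_cases j <;> fin_cases l <;> first | (exfalso; revert h; decide) | skip
  · exact k012
  · exact k021
  · exact k102
  · exact k120
  · exact k201
  · exact k210

theorem xg_one (i j l m : Fin 3) (hij : i ≠ j) (hlm : l ≠ m) (hjl : j ≠ l) (him : i ≠ m) : ⁅xg i j, xg l m⁆ = 1 := by
  apply Subtype.ext
  by_cases h0 : i = l ∧ j = m
  · obtain ⟨rfl, rfl⟩ := h0
    rw [commutatorElement_self]
  have h := And.intro hij (And.intro hlm (And.intro hjl (And.intro him h0)))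
  fin_cases i <;> fin_cases j <;> fin_cases l <;> fin_cases m <;> first | (exfalso; revert h; decide) | skip
  · exact q0102
  · exact q0121
  · exact comm_swap q0102
  · exact q0212
  · exact q1012
  · exact q1020
  · exact comm_swap q0212
  · exact comm_swap q1012
  · exact comm_swap q1020
  · exact q2021
  · exact comm_swap q0121
  · exact comm_swap q2021

theorem xg_ne : xg 0 1 ≠ 1 := by
  intro h
  have h1 : g01 = 1 := congrArg Subtype.val h
  have h4 : mat m01 = 1 := congrArg Units.val h1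
  have h5 : m01 = idm := mat_injective ok01 idm_spec.1 (h4.trans idm_spec.2.symm)
  have h6 := ne01
  rw [h5, Nat.beq_refl] at h6
  exact Bool.noConfusion h6

/-- the elements as elements of the Chevalley group -/
noncomputable def toG3 : ↥G →* G3 := (ren.symm.toMonoidHom.comp G.subtype).codRestrict _ fun g => g.2

theorem toG3_injective : Function.Injective toG3 := by
  intro a b h
  apply Subtype.ext
  have h1 : ren.symm (a : GL (Fin 248) (ZMod 3)) = ren.symm (b : GL (Fin 248) (ZMod 3)) := congrArg Subtype.val h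
  exact ren.symm.injective h1

/-- X2 : existence (words in the root elements) -/
theorem exists_f : ∃ f : SL35 →* G3, Function.Injective f := by
  obtain ⟨f, hf⟩ := H866.L5.of_steinberg xg xg_pow xg_comm xg_one xg_ne
  exact ⟨toG3.comp f, toG3_injective.comp hf⟩

end Cfsg.Agent.H136.L5.XExist
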